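import Cfsg.Agent.Lt.Gr5
import Cfsg.Agent.Lt.TD4
import Cfsg.Agent.Lt.TE6
import Cfsg.Agent.Lt.R9
import Cfsg.Agent.Lt.R2
import Cfsg.Agent.Lt.T3

/-! `²E₆` and `³D₄` satisfy `GP`. -/

set_option autoImplicit false

namespace Cfsg.Agent.Lt

open Cfsg.Lie

theorem gp_tw {p : ℕ} [Fact p.Prime] {G : Type*} [Group G] [Finite G] (h : IsTwistedE6D4Char p G) :
    GP p G := by
  obtain ⟨K, _, _, _, q, hq, ⟨hc, ⟨e⟩⟩ | ⟨hc, ⟨e⟩⟩⟩ := h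
  · exact (Gra.gp_2E6 p ifE6 (by decide +kernel) (by decide +kernel) hq hc).of_iso e
  · exact (Gra.gp_3D4 p ifD4 (by decide +kernel) (by decide +kernel) hq hc).of_iso e

end Cfsg.Agent.Lt
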