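import Cfsg.Agent.Lt.H2d
import Cfsg.Agent.Lt.Sig3

/-! The Ree groups. -/

set_option autoImplicit false

namespace Cfsg.Agent.Lt

open Cfsg.Lie

theorem gp_ree {G : Type*} [Group G] (h : IsoRee G) : GP 3 G := H2.gp_ree' (fun K _ _ _ m => sigG2 K m) h

theorem gp_2F4 {G : Type*} [Group G] (h : Iso2F4 G) : GP 2 G := H2.gp_2F4' (fun K _ _ _ m => sigF4 K m) h

end Cfsg.Agent.Lt
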